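import Cfsg.Agent.H351.CovF4.CharP
import Cfsg.Agent.H290.Wei.CharOne

/-!
# Own characteristic names, class 12 of `F₄(q)`, `q > 2` (helper824)
-/

set_option autoImplicit false
set_option maxHeartbeats 1000000

namespace Cfsg.Agent.H824.Wei

open Cfsg.Agent.OrdDiv Cfsg.Agent.H436 Cfsg.Agent.H915.GN Cfsg.Agent.H264.GN Cfsg.Agent.H264.FKS Cfsg.Agent.H325.Same
  Cfsg.Agent.H351.CovF4

section Z

variable {Q c : ℕ}

theorem gcd_two_odd (hQ : 2 ≤ Q) (hodd : Odd Q) : Nat.gcd 2 (Q - 1) = 2 := by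
  apply Nat.gcd_eq_left
  obtain ⟨k, rfl⟩ := hodd
  exact ⟨k, by omega⟩

theorem z_psl2_odd (hQ : 2 ≤ Q) (hodd : Odd Q) (h : den (.psl 2 Q) * c = num (.psl 2 Q)) :
    2 * (c : ℤ) = (Q : ℤ) * ((Q : ℤ) ^ 2 - 1) := by
  have h' : Nat.gcd 2 (Q - 1) * (Q - 1) * c = (Q ^ 2 - Q ^ 0) * ((Q ^ 2 - Q ^ 1) * 1) := h
  rw [gcd_two_odd hQ hodd, mul_one] at h'
  have h2 := congrArg (fun x : ℕ => (x : ℤ)) h'
  simp only [Nat.cast_mul, cs1 (show 1 ≤ Q by omega), cg (show 1 ≤ Q by omega) (show 0 ≤ 2 by norm_num),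
    cg (show 1 ≤ Q by omega) (show 1 ≤ 2 by norm_num), Nat.cast_ofNat] at h2
  have hQ' : ((Q : ℤ) - 1) ≠ 0 := by
    have : (2 : ℤ) ≤ Q := by exact_mod_cast hQ
    omega
  apply mul_left_cancel₀ hQ'
  linear_combination h2

theorem z_psp2_odd (hQ : 2 ≤ Q) (hodd : Odd Q) (h : den (.psp 2 Q) * c = num (.psp 2 Q)) :
    2 * (c : ℤ) = (Q : ℤ) ^ 4 * (((Q : ℤ) ^ 2 - 1) * ((Q : ℤ) ^ 4 - 1)) := by
  have h' : Nat.gcd 2 (Q - 1) * c = Q ^ (2 ^ 2) * ((Q ^ 2 - 1) * ((Q ^ 4 - 1) * 1)) := h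
  rw [gcd_two_odd hQ hodd, mul_one] at h'
  have h2 := congrArg (fun x : ℕ => (x : ℤ)) h'
  simp only [Nat.cast_mul, cs (show 1 ≤ Q by omega), Nat.cast_pow, Nat.cast_ofNat] at h2
  linear_combination h2

end Z

theorem e12_psl2 {q n k c : ℤ} (hM : q ^ 4 - q ^ 2 + 1 ≠ 0) (hc : c = n * (q ^ 4 - q ^ 2 + 1) * (1 + k * (q ^ 4 - q ^ 2 + 1)))
    (h : 2 * c = q ^ 6 * ((q ^ 6) ^ 2 - 1)) : q ^ 4 - q ^ 2 + 1 ∣ 2 * n - (2 * q ^ 2 + 2) := by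
  have h' : 2 * c = (q ^ 4 - q ^ 2 + 1) * (q ^ 14 + q ^ 12 - q ^ 8 - q ^ 6) := by
    rw [h]
    ring
  exact key hM hc h' (c₀ := 2 * q ^ 2 + 2) (L := q ^ 10 + 2 * q ^ 8 + q ^ 6 - 2 * q ^ 4 - 4 * q ^ 2 - 2) (by ring)

theorem e12_psp2 {q n k c : ℤ} (hM : q ^ 4 - q ^ 2 + 1 ≠ 0) (hc : c = n * (q ^ 4 - q ^ 2 + 1) * (1 + k * (q ^ 4 - q ^ 2 + 1)))
    (h : 2 * c = (q ^ 3) ^ 4 * (((q ^ 3) ^ 2 - 1) * ((q ^ 3) ^ 4 - 1))) : q ^ 4 - q ^ 2 + 1 ∣ 2 * n - (4 * q ^ 2 + 4) := by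
  have h' : 2 * c = (q ^ 4 - q ^ 2 + 1) * (q ^ 26 + q ^ 24 - 2 * q ^ 20 - 2 * q ^ 18 + q ^ 14 + q ^ 12) := by
    rw [h]
    ring
  exact key hM hc h' (c₀ := 4 * q ^ 2 + 4) (L := q ^ 22 + 2 * q ^ 20 + q ^ 18 - 3 * q ^ 16 - 6 * q ^ 14 - 3 * q ^ 12 + 4 * q ^ 10 + 8 * q ^ 8 + 4 * q ^ 6 - 4 * q ^ 4 - 8 * q ^ 2 - 4) (by ring)

section Fin

variable {q n D : ℤ} (hq : 3 ≤ q) (hn : n = 1 ∨ n = 2 ∨ n = 3 ∨ n = 4 ∨ n = 6 ∨ n = 12)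

include hq hn

theorem g12_psl2 (hd : q ^ 4 - q ^ 2 + 1 ∣ 2 * n - (2 * q ^ 2 + 2)) : False := by
  rcases (show q = 3 ∨ 4 ≤ q by omega) with rfl | h4
  · norm_num at hd
    rcases hn with rfl | rfl | rfl | rfl | rfl | rfl <;> norm_num at hd
  · have h16 : 16 ≤ q ^ 2 := by nlinarith
    have e : q ^ 4 = q ^ 2 * q ^ 2 := by ring
    rw [e] at hd
    generalize q ^ 2 = s at h16 hd
    refine no_dvd' hd ?_ ?_
    · omega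
    · nlinarith [show 1 ≤ n by omega]

theorem g12_psl3 (hD : D = 1 ∨ D = 3) (hd : q ^ 4 - q ^ 2 + 1 ∣ D * n - (6 * q ^ 2)) : False := by
  rcases (show q = 3 ∨ 4 ≤ q by omega) with rfl | h4
  · norm_num at hd
    rcases hD with rfl | rfl <;> rcases hn with rfl | rfl | rfl | rfl | rfl | rfl <;> norm_num at hd
  · exact f12_psl3 (Or.inr h4) hn hD hd

theorem g12_psp2 (hd : q ^ 4 - q ^ 2 + 1 ∣ 2 * n - (4 * q ^ 2 + 4)) : False := by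
  rcases (show q = 3 ∨ 4 ≤ q by omega) with rfl | h4
  · norm_num at hd
    rcases hn with rfl | rfl | rfl | rfl | rfl | rfl <;> norm_num at hd
  · have h16 : 16 ≤ q ^ 2 := by nlinarith
    have e : q ^ 4 = q ^ 2 * q ^ 2 := by ring
    rw [e] at hd
    generalize q ^ 2 = s at h16 hd
    refine no_dvd' hd ?_ ?_
    · omega
    · nlinarith [show 1 ≤ n by omega]

end Fin

/-- the data for the `kill4` -/
theorem exists_four' {p f c : ℕ} (hp : p.Prime) (hf : 1 ≤ f) (hdvd : c ∣ num (.f4 (p ^ f))) :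
    ∃ s y, Prim (p ^ f) 4 s ∧ ¬ s ∣ y ∧ 0 < y ∧ c ∣ (p ^ f) ^ 24 * (y * (((p ^ f) ^ 8 - 1) * ((p ^ f) ^ 12 - 1))) := by
  have hq : 2 ≤ p ^ f := hp.two_le.trans (Nat.le_self_pow (by omega) _)
  obtain ⟨s, hs4⟩ := exists_prim (q := p ^ f) (e := 4) hq (by norm_num) (by omega)
  have hd : c ∣ (p ^ f) ^ 24 * (((p ^ f) ^ 2 - 1) * ((p ^ f) ^ 6 - 1) * ((p ^ f) ^ 8 - 1) * ((p ^ f) ^ 12 - 1)) := hdvd
  have b2 := sub_pos' (d := 2) hq (by norm_num)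
  have b6 := sub_pos' (d := 6) hq (by norm_num)
  refine ⟨s, ((p ^ f) ^ 2 - 1) * ((p ^ f) ^ 6 - 1), hs4, fun h => ?_, Nat.mul_pos b2 b6, ?_⟩
  · rcases hs4.prime.dvd_mul.1 h with h | h
    · exact hs4.not_dvd_sub (by norm_num) h
    · exact hs4.not_dvd_sub (by norm_num) h
  · refine hd.trans (dvd_of_eq ?_)
    ring

/-- **The names, class 12, `q > 2`.** -/
theorem charpF4 {p f n k c : ℕ} {g : Grp} (hp : p.Prime) (hf : 1 ≤ f) (hq3 : 2 < p ^ f) (hn : n ∣ 12) (hg : Cond g)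
    (hch : HasChar p g) (hcg : den g * c = num g) (hdvd : c ∣ num (.f4 (p ^ f)))
    (hc : c = n * ((p ^ f) ^ 4 - (p ^ f) ^ 2 + 1) * (1 + k * ((p ^ f) ^ 4 - (p ^ f) ^ 2 + 1)))
    (hs : ∀ s, Prim p (f * 12) s → s ∣ c) :
    g = .f4 (p ^ f) ∨ g = .psu 3 ((p ^ f) ^ 2) ∨ g = .g2 ((p ^ f) ^ 2) ∨ g = .td4 (p ^ f) := by
  rcases hp.eq_two_or_odd' with rfl | hpo
  · rcases charp12 hf hn hg hch hcg hdvd hc hs with h | ⟨h, -⟩ | ⟨h, -⟩ | ⟨h, -⟩ | ⟨h, -⟩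
    · exact Or.inl h
    · exact Or.inr (Or.inl h)
    · exact Or.inr (Or.inr (Or.inl h))
    · exact Or.inr (Or.inr (Or.inr h))
    · subst h
      omega
  obtain ⟨s, y, hs4, hy, hy0, hd4⟩ := exists_four' hp hf hdvd
  have hn' := n12 hn
  obtain ⟨q, hq⟩ : ∃ q, q = p ^ f := ⟨_, rfl⟩
  have hodd : Odd q := by rw [hq]; exact hpo.pow
  have hq2 : 3 ≤ q := by omega
  have hcZ : (c : ℤ) = n * ((q : ℤ) ^ 4 - (q : ℤ) ^ 2 + 1) * (1 + k * ((q : ℤ) ^ 4 - (q : ℤ) ^ 2 + 1)) := by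
    rw [hc, ← hq]
    push_cast [cg (show 1 ≤ q by omega) (show 2 ≤ 4 by norm_num)]
    ring
  have hqo : (3 : ℤ) ≤ q := by exact_mod_cast hq2
  have hnZ : (n : ℤ) = 1 ∨ (n : ℤ) = 2 ∨ (n : ℤ) = 3 ∨ (n : ℤ) = 4 ∨ (n : ℤ) = 6 ∨ (n : ℤ) = 12 := by omega
  have hM0 : (q : ℤ) ^ 4 - (q : ℤ) ^ 2 + 1 ≠ 0 := by nlinarith [sq_nonneg ((q : ℤ) ^ 2 - 1)]
  have hpw : ∀ j, p ^ (f * j) = q ^ j := fun j => by rw [hq, ← pow_mul]
  have hodd' : ∀ j, Odd (q ^ j) := fun j => hodd.pow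
  have hle : ∀ j, j ≠ 0 → 2 ≤ q ^ j := fun j hj => (show 2 ≤ q by omega).trans (Nat.le_self_pow hj q)
  obtain ⟨f₁, hf₁, h⟩ := Cfsg.Agent.H290.Wei.charp_f4_12 hp hf hg hch hcg hdvd hs
  rcases h with ⟨h5, rfl⟩ | ⟨h5, rfl⟩ | ⟨h5, rfl⟩ | ⟨h5, rfl⟩ | ⟨h5, rfl⟩ | ⟨h5, rfl⟩ | ⟨h5, rfl⟩ | ⟨h5, rfl⟩ |
    ⟨h5, rfl⟩ | ⟨h5, rfl⟩ | ⟨h5, rfl⟩ | ⟨h5, rfl⟩ | ⟨h5, rfl⟩ | ⟨h5, rfl⟩
  · exfalso
    obtain rfl : f₁ = f * 6 := by omega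
    rw [hpw] at hcg
    have hz := z_psl2_odd (hle 6 (by norm_num)) (hodd' 6) hcg
    rw [Nat.cast_pow] at hz
    exact g12_psl2 hqo hnZ (e12_psl2 hM0 hcZ hz)
  · exfalso
    obtain rfl : f₁ = f * 4 := by omega
    rw [hpw] at hcg
    obtain ⟨D, hD, hz⟩ := z_psl3 (hle 4 (by norm_num)) hcg
    rw [Nat.cast_pow] at hz
    exact g12_psl3 hqo hnZ hD (d12_psl3 hM0 hcZ hz)
  · exfalso
    obtain rfl : f₁ = f * 3 := by omega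
    rw [hpw] at hcg
    have hz := z_psp2_odd (hle 3 (by norm_num)) (hodd' 3) hcg
    rw [Nat.cast_pow] at hz
    exact g12_psp2 hqo hnZ (e12_psp2 hM0 hcZ hz)
  · exfalso
    obtain rfl : f₁ = f * 2 := by omega
    exact kill4_psp hp hf hs4 hy hy0 hd4 hcg
  · exfalso
    obtain rfl : f₁ = f * 2 := by omega
    exact kill4_oodd hp hf hs4 hy hy0 hd4 hcg
  · obtain rfl : f₁ = f * 2 := by omega
    right; left
    rw [hpw, ← hq]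
  · exfalso
    obtain rfl : f₁ = f * 2 := by omega
    exact kill4_psu hp hf hs4 hy hy0 hd4 hcg
  · exfalso
    obtain rfl : f₁ = f * 2 := by omega
    exact kill4_oplus hp hf hs4 hy hy0 hd4 hcg
  · obtain rfl : f₁ = f * 2 := by omega
    right; right; left
    rw [hpw, ← hq]
  · obtain rfl : f₁ = f := by omega
    exact Or.inl rfl
  · obtain rfl : f₁ = f := by omega
    exact Or.inr (Or.inr (Or.inr rfl))
  · exfalso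
    obtain ⟨m, hm, hm2⟩ := hg
    have h6 : 2 ∣ p ^ f₁ := by rw [hm2]; exact dvd_pow_self 2 (by omega)
    exact (Nat.not_even_iff_odd.2 hpo.pow) (even_iff_two_dvd.2 h6)
  · exfalso
    obtain ⟨m, hm, hm2⟩ := hg
    have h6 : 3 ∣ p ^ f₁ := by rw [hm2]; exact dvd_pow_self 3 (by omega)
    obtain rfl : 3 = p := (Nat.prime_dvd_prime_iff_eq Nat.prime_three hp).1 (Nat.prime_three.dvd_of_dvd_pow h6)
    have h7 : f₁ = 2 * m + 1 := Nat.pow_right_injective (by norm_num) hm2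
    omega
  · exfalso
    obtain ⟨m, hm, hm2⟩ := hg
    have h6 : 2 ∣ p ^ f₁ := by rw [hm2]; exact dvd_pow_self 2 (by omega)
    exact (Nat.not_even_iff_odd.2 hpo.pow) (even_iff_two_dvd.2 h6)

end Cfsg.Agent.H824.Wei
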