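import Cfsg.Agent.H129.TorusUntw
import Cfsg.Agent.H129.StabGen

/-!
# The root system `F₄` modulo a prime: no `S₃` acting as reflections on an eigenspace (helper824)

`no_config` : `t₁, t₂ : ℤ⁴ → ℤ/s` independent, `w₀` acts on them by a scalar `j`, `j² = -1`, `w₁, w₂` as two reflections
generating `S₃`; a root with `t₁ = 0`: contradiction.
-/

set_option autoImplicit false

namespace Cfsg.Agent.H824.Wei

open CoxeterSystem Cfsg Cfsg.Lie Cfsg.Lie.ChevalleyDatum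
open Cfsg.Agent.ChevalleyStructure Cfsg.Agent.ChevalleyStructure.CoxeterGeom
  Cfsg.Agent.ChevalleyStructure.CoxeterGeomTypes
open Cfsg.Agent.Tits.Roots Cfsg.Agent.Nodes.RGDChev

/-- the invariant form -/
def bf (x y : Fin 4 → ℤ) : ℤ :=
  2 * x 0 * y 0 - x 0 * y 1 - x 1 * y 0 + 2 * x 1 * y 1 - 2 * x 1 * y 2 - 2 * x 2 * y 1 + 4 * x 2 * y 2 -
    2 * x 2 * y 3 - 2 * x 3 * y 2 + 4 * x 3 * y 3

theorem bf_comm (x y : Fin 4 → ℤ) : bf x y = bf y x := by
  unfold bf; ring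

theorem bf_add_left (x y z : Fin 4 → ℤ) : bf (x + y) z = bf x z + bf y z := by
  simp only [bf, Pi.add_apply]; ring

theorem bf_add_right (x y z : Fin 4 → ℤ) : bf x (y + z) = bf x y + bf x z := by
  simp only [bf, Pi.add_apply]; ring

theorem bf_neg_left (x z : Fin 4 → ℤ) : bf (-x) z = - bf x z := by
  simp only [bf, Pi.neg_apply]; ring

theorem bf_neg_right (x z : Fin 4 → ℤ) : bf x (-z) = - bf x z := by
  simp only [bf, Pi.neg_apply]; ring

theorem bf_smul_right (c : ℤ) (x z : Fin 4 → ℤ) : bf x (c • z) = c * bf x z := by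
  simp only [bf, Pi.smul_apply, smul_eq_mul]; ring

section W

variable {W : Type*} [Group W] (hp : IsType chevF4 4 CoxeterMatrix.F₄) (cs : CoxeterSystem CoxeterMatrix.F₄ W)

theorem cart : (List.finRange 4).map (fun i => (List.finRange 4).map fun j => cartanOf chevF4 4 i j) =
    [[2, -1, 0, 0], [-1, 2, -2, 0], [0, -1, 2, -1], [0, 0, -1, 2]] := by decide +kernel

theorem cart_apply : ∀ i j : Fin 4, cartanOf chevF4 4 i j =
    (([[2, -1, 0, 0], [-1, 2, -2, 0], [0, -1, 2, -1], [0, 0, -1, 2]] : List (List ℤ)).getD i []).getD j 0 := by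
  decide +kernel

theorem refl_app (i : Fin 4) (x : Fin 4 → ℤ) (k : Fin 4) : CoxeterGeom.refl (cartanOf chevF4 4) i x k =
    x k - if k = i then ∑ j, cartanOf chevF4 4 i j * x j else 0 := by
  show x k - (Pi.single i (pairing (cartanOf chevF4 4) i x) : Fin 4 → ℤ) k = _
  rw [Pi.single_apply]
  rfl

theorem bf_refl (i : Fin 4) (x y : Fin 4 → ℤ) :
    bf (CoxeterGeom.refl (cartanOf chevF4 4) i x) (CoxeterGeom.refl (cartanOf chevF4 4) i y) = bf x y := by
  fin_cases i <;>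
  · simp only [bf, refl_app, Fin.sum_univ_four, cart_apply]
    simp
    ring

theorem bf_rep (w : W) (x y : Fin 4 → ℤ) : bf (rep cs hp.isCartan w x) (rep cs hp.isCartan w y) = bf x y := by
  obtain ⟨ω, rfl⟩ := cs.wordProd_surjective w
  induction ω generalizing x y with
  | nil => rw [wordProd_nil, map_one, Module.End.one_apply, Module.End.one_apply]
  | cons i ω ih => rw [wordProd_cons, rep_mul_apply, rep_mul_apply, rep_simple, bf_refl, ih]

/-! ### the roots -/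

/-- the roots -/
def RL : List (List ℤ) := [[-2, -4, -3, -2], [-2, -4, -3, -1], [-2, -4, -2, -1], [-2, -3, -2, -1],
  [-2, -2, -2, -1], [-2, -2, -1, -1], [-2, -2, -1, 0], [-1, -3, -2, -1], [-1, -2, -2, -1], [-1, -2, -1, -1],
  [-1, -2, -1, 0], [-1, -1, -1, -1], [-1, -1, -1, 0], [-1, -1, 0, 0], [-1, 0, 0, 0], [0, -2, -2, -1],
  [0, -2, -1, -1], [0, -2, -1, 0], [0, -1, -1, -1], [0, -1, -1, 0], [0, -1, 0, 0], [0, 0, -1, -1], [0, 0, -1, 0],
  [0, 0, 0, -1], [0, 0, 0, 1], [0, 0, 1, 0], [0, 0, 1, 1], [0, 1, 0, 0], [0, 1, 1, 0], [0, 1, 1, 1], [0, 2, 1, 0],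
  [0, 2, 1, 1], [0, 2, 2, 1], [1, 0, 0, 0], [1, 1, 0, 0], [1, 1, 1, 0], [1, 1, 1, 1], [1, 2, 1, 0], [1, 2, 1, 1],
  [1, 2, 2, 1], [1, 3, 2, 1], [2, 2, 1, 0], [2, 2, 1, 1], [2, 2, 2, 1], [2, 3, 2, 1], [2, 4, 2, 1], [2, 4, 3, 1],
  [2, 4, 3, 2]]

/-- the form on lists -/
def bl (x y : List ℤ) : ℤ :=
  2 * x.getD 0 0 * y.getD 0 0 - x.getD 0 0 * y.getD 1 0 - x.getD 1 0 * y.getD 0 0 + 2 * x.getD 1 0 * y.getD 1 0 -
    2 * x.getD 1 0 * y.getD 2 0 - 2 * x.getD 2 0 * y.getD 1 0 + 4 * x.getD 2 0 * y.getD 2 0 -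
    2 * x.getD 2 0 * y.getD 3 0 - 2 * x.getD 3 0 * y.getD 2 0 + 4 * x.getD 3 0 * y.getD 3 0

theorem vec_eq : ∀ r < 48, RL.getD r [] ∈ RL ∧ ∀ i : Fin 4, vec chevF4 4 r i = (RL.getD r []).getD i 0 := by
  decide +kernel

theorem root_mem {x : Fin 4 → ℤ} (h : IsRoot cs hp.isCartan x) : ∃ v ∈ RL, ∀ i : Fin 4, x i = v.getD i 0 := by
  obtain ⟨r, hr, rfl⟩ := (isRoot_iff hp cs x).1 h
  have hr' : r < 48 := hr
  exact ⟨RL.getD r [], (vec_eq r hr').1, (vec_eq r hr').2⟩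

theorem bf_eq {x y : Fin 4 → ℤ} {v w : List ℤ} (h1 : ∀ i : Fin 4, x i = v.getD i 0) (h2 : ∀ i : Fin 4, y i = w.getD i 0) :
    bf x y = bl v w := by
  simp only [bf, h1, h2]
  rfl

/-- `c = 0` or `c ∣ 24` -/
def sml (c : ℤ) : Bool := c == 0 || 24 % c == 0

def chk1 : Bool := RL.all fun v => (bl v v == 2 || bl v v == 4) && RL.all fun w =>
  !(bl v v == bl w w) || (sml (bl v v + bl v w) && (!(bl v v + bl v w == 0) || ((List.range 4).all fun i => w.getD i 0 == -(v.getD i 0))))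

def chk2 : Bool := RL.all fun v => RL.all fun w =>
  !(bl v v == bl w w) || (sml (2 * bl v w + bl v v) && sml (bl v w) && (!(2 * bl v w + bl v v == 0) || (RL.all fun u =>
    !(bl u u == bl v v) || !(bl v u == 0) || !(bl w u == 0))))

theorem chk1_ok : chk1 = true := by decide +kernel
theorem chk2_ok : chk2 = true := by decide +kernel

theorem eq_zero_of_sml {s : ℕ} (hs : s.Prime) (h5 : 5 ≤ s) {c : ℤ} (hc : sml c = true) (hd : ((c : ℤ) : ZMod s) = 0) :
    c = 0 := by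
  unfold sml at hc
  rw [Bool.or_eq_true, beq_iff_eq, beq_iff_eq] at hc
  rcases hc with h | h
  · exact h
  · exfalso
    rw [ZMod.intCast_zmod_eq_zero_iff_dvd] at hd
    have h1 : (s : ℤ) ∣ 24 := hd.trans (Int.dvd_of_emod_eq_zero h)
    have h2 : s ∣ 2 ^ 3 * 3 := by exact_mod_cast h1
    rcases hs.dvd_mul.1 h2 with h3 | h3
    · have := Nat.le_of_dvd (by norm_num) (hs.dvd_of_dvd_pow h3)
      omega
    · have := Nat.le_of_dvd (by norm_num) h3
      omega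

section Chk

variable {s : ℕ} (hs : s.Prime) (h5 : 5 ≤ s) {x y z : Fin 4 → ℤ} (hx : IsRoot cs hp.isCartan x)
  (hy : IsRoot cs hp.isCartan y)

include hx in
theorem norm_root : bf x x = 2 ∨ bf x x = 4 := by
  obtain ⟨v, hv, h1⟩ := root_mem hp cs hx
  have h := List.all_eq_true.1 chk1_ok v hv
  rw [Bool.and_eq_true] at h
  rw [bf_eq h1 h1]
  simpa using h.1

include hs h5 hx hy in
/-- roots of the same length with `B(x, x) + B(x, y) = 0` modulo `s` are opposite -/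
theorem neg_of (hN : bf x x = bf y y) (h : ((bf x x + bf x y : ℤ) : ZMod s) = 0) : y = -x := by
  obtain ⟨v, hv, h1⟩ := root_mem hp cs hx
  obtain ⟨w, hw, h2⟩ := root_mem hp cs hy
  have h3 := List.all_eq_true.1 chk1_ok v hv
  rw [Bool.and_eq_true] at h3
  have h4 := List.all_eq_true.1 h3.2 w hw
  rw [bf_eq h1 h1, bf_eq h2 h2] at hN
  rw [bf_eq h1 h1, bf_eq h1 h2] at h
  rw [hN, beq_self_eq_true, Bool.not_true, Bool.false_or, ← hN, Bool.and_eq_true] at h4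
  have h6 := eq_zero_of_sml hs h5 h4.1 h
  have h7 := h4.2
  rw [h6, beq_self_eq_true, Bool.not_true, Bool.false_or, List.all_eq_true] at h7
  funext i
  have h8 := h7 i (List.mem_range.2 i.2)
  rw [beq_iff_eq] at h8
  rw [Pi.neg_apply, h1, h2]
  exact h8

include hs h5 hx hy in
/-- no root of the same length orthogonal to `x` and `y` -/
theorem no_orth (hz : IsRoot cs hp.isCartan z) (hxy : bf x x = bf y y) (hxz : bf z z = bf x x)
    (h1 : ((2 * bf x y + bf x x : ℤ) : ZMod s) = 0) (h2 : bf x z = 0) (h3 : ((bf y z : ℤ) : ZMod s) = 0) : False := by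
  obtain ⟨v, hv, e1⟩ := root_mem hp cs hx
  obtain ⟨w, hw, e2⟩ := root_mem hp cs hy
  obtain ⟨u, hu, e3⟩ := root_mem hp cs hz
  rw [bf_eq e1 e1, bf_eq e2 e2] at hxy
  rw [bf_eq e1 e1, bf_eq e3 e3] at hxz
  rw [bf_eq e1 e1, bf_eq e1 e2] at h1
  rw [bf_eq e1 e3] at h2
  rw [bf_eq e2 e3] at h3
  have h4 := List.all_eq_true.1 (List.all_eq_true.1 chk2_ok v hv) w hw
  have h5' := List.all_eq_true.1 (List.all_eq_true.1 chk2_ok w hw) u hu
  simp only [Bool.or_eq_true, Bool.and_eq_true, Bool.not_eq_true', beq_eq_false_iff_ne, List.all_eq_true] at h4 h5'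
  rcases h4 with h4 | ⟨⟨h4, -⟩, h6⟩
  · exact h4 hxy
  have h7 := eq_zero_of_sml hs h5 h4 h1
  rcases h6 with h6 | h6
  · exact h6 h7
  rcases h5' with h8 | ⟨⟨-, h8⟩, -⟩
  · exact h8 (hxy.symm.trans hxz.symm)
  have h9 := eq_zero_of_sml hs h5 h8 h3
  rcases h6 u hu with (h10 | h10) | h10
  · exact h10 hxz
  · exact h10 h2
  · exact h10 h9

end Chk

end W

end Cfsg.Agent.H824.Wei
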