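import Cfsg.Agent.H824.Wei.F4Iso

/-!
# The configuration does not exist (helper824)
-/

set_option autoImplicit false

namespace Cfsg.Agent.H824.Wei

open CoxeterSystem Cfsg Cfsg.Lie Cfsg.Lie.ChevalleyDatum
open Cfsg.Agent.ChevalleyStructure Cfsg.Agent.ChevalleyStructure.CoxeterGeom
  Cfsg.Agent.ChevalleyStructure.CoxeterGeomTypes
open Cfsg.Agent.Tits.Roots Cfsg.Agent.Nodes.RGDChev

section Conf

variable {s : ℕ} [hs : Fact s.Prime] {W : Type*} [Group W]

theorem two_ne (h5 : 5 ≤ s) : (2 : ZMod s) ≠ 0 := by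
  intro h
  have h1 : ((2 : ℕ) : ZMod s) = 0 := by exact_mod_cast h
  rw [ZMod.natCast_eq_zero_iff] at h1
  have := Nat.le_of_dvd (by norm_num) h1
  omega

/-- opposite roots -/
theorem opp (h5 : 5 ≤ s) (hp : IsType chevF4 4 CoxeterMatrix.F₄) (cs : CoxeterSystem CoxeterMatrix.F₄ W)
    {p r : (Fin 4 → ℤ) →+ ZMod s}
    (iso : ∀ x y, p x = 0 → r x = 0 → p y = 0 → r y = 0 → ((bf x y : ℤ) : ZMod s) = 0) {x y : Fin 4 → ℤ}
    (hx : IsRoot cs hp.isCartan x) (hy : IsRoot cs hp.isCartan y) (hN : bf x x = bf y y) (h1 : p x + p y = 0)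
    (h2 : r x + r y = 0) : y = -x := by
  apply neg_of hp cs hs.out h5 hx hy hN
  have h3 := iso (x + y) (x + y) (by rw [map_add, h1]) (by rw [map_add, h2]) (by rw [map_add, h1]) (by rw [map_add, h2])
  have h4 : bf (x + y) (x + y) = 2 * (bf x x + bf x y) := by
    rw [bf_add_left, bf_add_right, bf_add_right, bf_comm y x, ← hN]; ring
  rw [h4, Int.cast_mul] at h3
  exact (mul_eq_zero.1 h3).resolve_left (by exact_mod_cast two_ne h5)

theorem rep_inv_neg (hp : IsType chevF4 4 CoxeterMatrix.F₄) (cs : CoxeterSystem CoxeterMatrix.F₄ W) {w : W}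
    {x : Fin 4 → ℤ} (h : rep cs hp.isCartan w x = -x) : rep cs hp.isCartan w⁻¹ x = -x := by
  have h1 : rep cs hp.isCartan w⁻¹ (rep cs hp.isCartan w x) = x := by
    rw [← rep_mul_apply, inv_mul_cancel, map_one, Module.End.one_apply]
  rw [h, map_neg] at h1
  exact neg_eq_iff_eq_neg.1 h1

/-- **One half.** -/
theorem half (h5 : 5 ≤ s) (hp : IsType chevF4 4 CoxeterMatrix.F₄) (cs : CoxeterSystem CoxeterMatrix.F₄ W)
    {j : ZMod s} (hj : j ^ 2 = -1) {p r : (Fin 4 → ℤ) →+ ZMod s}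
    (iso : ∀ x y, p x = 0 → r x = 0 → p y = 0 → r y = 0 → ((bf x y : ℤ) : ZMod s) = 0) {w₀ w : W}
    (h0p : ∀ x, p (rep cs hp.isCartan w₀ x) = j * p x) (h0r : ∀ x, r (rep cs hp.isCartan w₀ x) = j * r x)
    (h1p : ∀ x, p (rep cs hp.isCartan w x) = p x) (h1r : ∀ x, r (rep cs hp.isCartan w x) = - p x - r x)
    {a : Fin 4 → ℤ} (ha : IsRoot cs hp.isCartan a) (hpa : p a = 0) {b : Fin 4 → ℤ} (hb : 2 * r b + p b + r a = 0) :
    rep cs hp.isCartan w₀ (rep cs hp.isCartan w₀ a) = -a ∧ bf a (rep cs hp.isCartan w₀ a) = 0 ∧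
    2 * ((bf b a : ℤ) : ZMod s) + 2 * j * ((bf b (rep cs hp.isCartan w₀ a) : ℤ) : ZMod s) = - ((bf a a : ℤ) : ZMod s) := by
  set c := rep cs hp.isCartan w₀ a with hc
  have hcr : IsRoot cs hp.isCartan c := ha.act w₀
  have hcc : bf c c = bf a a := bf_rep hp cs w₀ a a
  have hpc : p c = 0 := by rw [hc, h0p, hpa, mul_zero]
  have hjj : j * j = -1 := by rw [← hj, sq]
  -- `w a = -a`
  have e1 : rep cs hp.isCartan w a = -a :=
    opp h5 hp cs iso ha (ha.act w) (bf_rep hp cs w a a).symm (by rw [h1p, hpa, add_zero]) (by rw [h1r, hpa]; ring)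
  have e1' : rep cs hp.isCartan w⁻¹ a = -a := rep_inv_neg hp cs e1
  have hinvp : ∀ x, p (rep cs hp.isCartan w⁻¹ x) = p x := by
    intro x
    rw [← h1p (rep cs hp.isCartan w⁻¹ x), ← rep_mul_apply, mul_inv_cancel, map_one, Module.End.one_apply]
  have hinvr : ∀ x, r (rep cs hp.isCartan w⁻¹ x) = - p x - r x := by
    intro x
    have h1 := h1r (rep cs hp.isCartan w⁻¹ x)
    rw [← rep_mul_apply, mul_inv_cancel, map_one, Module.End.one_apply, hinvp] at h1
    rw [h1]; ring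
  have e2 : rep cs hp.isCartan w⁻¹ c = -c :=
    opp h5 hp cs iso hcr (hcr.act w⁻¹) (bf_rep hp cs w⁻¹ c c).symm (by rw [hinvp, hpc, add_zero])
      (by rw [hinvr, hpc]; ring)
  have e3 : rep cs hp.isCartan w₀ c = -a :=
    opp h5 hp cs iso ha (hcr.act w₀) (by rw [bf_rep hp cs, hcc]) (by rw [h0p, hpc, hpa, mul_zero, add_zero])
      (by rw [h0r, hc, h0r, ← mul_assoc, hjj]; ring)
  have e4 : bf a c = 0 := by
    have h1 := bf_rep hp cs w₀ a c
    rw [← hc, e3, bf_neg_right, bf_comm c a] at h1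
    omega
  refine ⟨e3, e4, ?_⟩
  -- the functional
  have hw : ∀ x y, rep cs hp.isCartan w⁻¹ y = -y → bf (rep cs hp.isCartan w x) y = - bf x y := by
    intro x y h
    rw [← bf_rep hp cs w⁻¹ (rep cs hp.isCartan w x) y, ← rep_mul_apply, inv_mul_cancel, map_one, Module.End.one_apply, h,
      bf_neg_right]
  -- the isotropic vector
  set v : Fin 4 → ℤ := a + ((j.val : ℕ) : ℤ) • c with hv
  have hjv : (((j.val : ℕ) : ℤ) : ZMod s) = j := by rw [Int.cast_natCast, ZMod.natCast_zmod_val]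
  have hpv : p v = 0 := by rw [hv, map_add, map_zsmul, hpa, hpc, smul_zero, add_zero]
  have hrv : r v = 0 := by
    rw [hv, map_add, map_zsmul, zsmul_eq_mul, hjv, hc, h0r, ← mul_assoc, hjj]
    ring
  have hbv : ∀ z, bf z v = bf z a + ((j.val : ℕ) : ℤ) * bf z c := fun z => by rw [hv, bf_add_right, bf_smul_right]
  have h6 := iso (b + -(rep cs hp.isCartan w b) + a) v
    (by rw [map_add, map_add, map_neg, h1p, hpa]; ring)
    (by
      rw [map_add, map_add, map_neg, h1r]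
      linear_combination hb) hpv hrv
  rw [hbv, bf_add_left, bf_add_left, bf_add_left, bf_add_left, bf_neg_left, bf_neg_left, hw b a e1', hw b c e2, e4] at h6
  push_cast at h6
  rw [ZMod.natCast_zmod_val] at h6
  linear_combination h6

/-- **No configuration.** -/
theorem no_config (h5 : 5 ≤ s) (hp : IsType chevF4 4 CoxeterMatrix.F₄) (cs : CoxeterSystem CoxeterMatrix.F₄ W)
    {j : ZMod s} (hj : j ^ 2 = -1) {t : Fin 2 → ((Fin 4 → ℤ) →+ ZMod s)}
    (hind : ∀ c : Fin 2 → ZMod s, (∀ x, ∑ i, c i * t i x = 0) → c = 0) {w₀ w₁ w₂ : W}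
    (h0 : ∀ i x, t i (rep cs hp.isCartan w₀ x) = j * t i x)
    (h10 : ∀ x, t 0 (rep cs hp.isCartan w₁ x) = t 0 x) (h11 : ∀ x, t 1 (rep cs hp.isCartan w₁ x) = - t 0 x - t 1 x)
    (h21 : ∀ x, t 1 (rep cs hp.isCartan w₂ x) = t 1 x) (h20 : ∀ x, t 0 (rep cs hp.isCartan w₂ x) = - t 0 x - t 1 x)
    {a : Fin 4 → ℤ} (ha : IsRoot cs hp.isCartan a) (ha0 : t 0 a = 0) : False := by
  have iso : ∀ x y, t 0 x = 0 → t 1 x = 0 → t 0 y = 0 → t 1 y = 0 → ((bf x y : ℤ) : ZMod s) = 0 := by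
    intro x y h1 h2 h3 h4
    exact iso_ker h5 hp cs hj hind h0 (fun i => by fin_cases i <;> assumption) (fun i => by fin_cases i <;> assumption)
  have iso' : ∀ x y, t 1 x = 0 → t 0 x = 0 → t 1 y = 0 → t 0 y = 0 → ((bf x y : ℤ) : ZMod s) = 0 :=
    fun x y h1 h2 h3 h4 => iso x y h2 h1 h4 h3
  set b : Fin 4 → ℤ := rep cs hp.isCartan w₁ (rep cs hp.isCartan w₂ a) with hb
  have hbr : IsRoot cs hp.isCartan b := (ha.act w₂).act w₁
  have hbb : bf b b = bf a a := by rw [hb, bf_rep hp cs, bf_rep hp cs]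
  have hb0 : t 0 b = - t 1 a := by rw [hb, h10, h20, ha0]; ring
  have hb1 : t 1 b = 0 := by rw [hb, h11, h20, h21, ha0]; ring
  obtain ⟨e1, e2, e3⟩ := half h5 hp cs hj iso (h0 0) (h0 1) h10 h11 ha ha0 (b := b) (by rw [hb0, hb1]; ring)
  obtain ⟨f1, f2, f3⟩ := half h5 hp cs hj iso' (w₀ := w₀) (w := w₂) (h0 1) (h0 0) h21 (fun x => by rw [h20]; ring) hbr hb1
    (b := a) (by rw [hb0, ha0]; ring)
  have h6 : bf a (rep cs hp.isCartan w₀ b) = - bf b (rep cs hp.isCartan w₀ a) := by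
    rw [← bf_rep hp cs w₀ a (rep cs hp.isCartan w₀ b), f1, bf_neg_right, bf_comm]
  rw [h6, hbb, bf_comm a b] at f3
  push_cast at f3
  have h2 := two_ne (s := s) h5
  have h4 : ((2 * bf b a + bf a a : ℤ) : ZMod s) = 0 := by
    push_cast
    apply mul_left_cancel₀ h2
    linear_combination e3 + f3
  have h7 : ((bf b (rep cs hp.isCartan w₀ a) : ℤ) : ZMod s) = 0 := by
    have hj0 : j ≠ 0 := by
      rintro rfl
      rw [zero_pow (by norm_num)] at hj
      have h8 : (1 : ZMod s) = 0 := by linear_combination hj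
      exact one_ne_zero h8
    apply mul_left_cancel₀ hj0
    apply mul_left_cancel₀ h2
    apply mul_left_cancel₀ h2
    linear_combination e3 - f3
  rw [bf_comm b a] at h4
  exact no_orth hp cs hs.out h5 ha hbr (ha.act w₀) hbb.symm (bf_rep hp cs w₀ a a) h4 e2 h7

end Conf

end Cfsg.Agent.H824.Wei
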