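import Cfsg.Agent.H824.Wei.F4Alg

/-!
# The kernel of an eigenspace is isotropic (helper824)
-/

set_option autoImplicit false

namespace Cfsg.Agent.H824.Wei

open CoxeterSystem Cfsg Cfsg.Lie Cfsg.Lie.ChevalleyDatum
open Cfsg.Agent.ChevalleyStructure Cfsg.Agent.ChevalleyStructure.CoxeterGeom
  Cfsg.Agent.ChevalleyStructure.CoxeterGeomTypes
open Cfsg.Agent.Tits.Roots Cfsg.Agent.Nodes.RGDChev

section Lin

variable {s : ℕ} [hs : Fact s.Prime]

/-- the Gram matrix modulo `s` -/
def gm (s : ℕ) : Matrix (Fin 4) (Fin 4) (ZMod s) := !![2, -1, 0, 0; -1, 2, -2, 0; 0, -2, 4, -2; 0, 0, -2, 4]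

/-- reduction modulo `s` -/
def rd (s : ℕ) (x : Fin 4 → ℤ) : Fin 4 → ZMod s := fun i => (x i : ZMod s)

theorem det_gm : (gm s).det = 4 := by
  rw [gm, Matrix.det_succ_row_zero]
  simp [Fin.sum_univ_four, Matrix.det_fin_three, Matrix.submatrix, Fin.succAbove]
  ring

/-- the form modulo `s` -/
noncomputable def bz (s : ℕ) [Fact s.Prime] : LinearMap.BilinForm (ZMod s) (Fin 4 → ZMod s) := Matrix.toBilin' (gm s)

theorem bz_rd (x y : Fin 4 → ℤ) : bz s (rd s x) (rd s y) = ((bf x y : ℤ) : ZMod s) := by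
  rw [bz, Matrix.toBilin'_apply]
  simp only [Fin.sum_univ_four, gm, rd, bf]
  simp
  ring

theorem bz_nd (h5 : 5 ≤ s) : (bz s).Nondegenerate := by
  apply LinearMap.BilinForm.nondegenerate_toBilin'_of_det_ne_zero'
  rw [det_gm]
  intro h
  have h1 : ((4 : ℕ) : ZMod s) = 0 := by exact_mod_cast h
  rw [ZMod.natCast_eq_zero_iff] at h1
  have := Nat.le_of_dvd (by norm_num) h1
  omega

theorem rd_surj (v : Fin 4 → ZMod s) : ∃ x : Fin 4 → ℤ, rd s x = v :=
  ⟨fun i => ((v i).val : ℤ), by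
    funext i
    show (((v i).val : ℤ) : ZMod s) = v i
    rw [Int.cast_natCast, ZMod.natCast_zmod_val]⟩

/-- extension of a functional -/
def ext1 (t : (Fin 4 → ℤ) →+ ZMod s) : (Fin 4 → ZMod s) →ₗ[ZMod s] ZMod s where
  toFun v := ∑ k, v k * t (Pi.single k 1)
  map_add' v w := by simp only [Pi.add_apply, add_mul, Finset.sum_add_distrib]
  map_smul' c v := by simp only [Pi.smul_apply, smul_eq_mul, RingHom.id_apply, Finset.mul_sum, mul_assoc]

theorem ext1_rd (t : (Fin 4 → ℤ) →+ ZMod s) (x : Fin 4 → ℤ) : ext1 t (rd s x) = t x := by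
  have h1 : x = ∑ k, x k • (Pi.single k 1 : Fin 4 → ℤ) := by
    funext i
    rw [Finset.sum_apply, Finset.sum_eq_single i]
    · simp
    · intro b _ hb
      simp [hb.symm]
    · intro hi
      exact absurd (Finset.mem_univ i) hi
  conv_rhs => rw [h1, map_sum]
  show ∑ k, ((x k : ℤ) : ZMod s) * t (Pi.single k 1) = _
  refine Finset.sum_congr rfl fun k _ => ?_
  rw [map_zsmul, zsmul_eq_mul]

/-- the vector of a functional -/
theorem exists_vec (h5 : 5 ≤ s) (t : (Fin 4 → ℤ) →+ ZMod s) : ∃ τ : Fin 4 → ℤ, ∀ x, ((bf τ x : ℤ) : ZMod s) = t x := by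
  obtain ⟨τ, hτ⟩ := rd_surj (((bz s).toDual (bz_nd h5)).symm (ext1 t))
  refine ⟨τ, fun x => ?_⟩
  rw [← bz_rd, hτ, ← LinearMap.BilinForm.toDual_def (bz_nd h5), LinearEquiv.apply_symm_apply, ext1_rd]

/-- **Isotropy.** -/
theorem iso_ker (h5 : 5 ≤ s) {W : Type*} [Group W] (hp : IsType chevF4 4 CoxeterMatrix.F₄)
    (cs : CoxeterSystem CoxeterMatrix.F₄ W) {j : ZMod s} (hj : j ^ 2 = -1) {t : Fin 2 → ((Fin 4 → ℤ) →+ ZMod s)}
    (hind : ∀ c : Fin 2 → ZMod s, (∀ x, ∑ i, c i * t i x = 0) → c = 0) {w : W}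
    (hw : ∀ i x, t i (rep cs hp.isCartan w x) = j * t i x) {x y : Fin 4 → ℤ} (hx : ∀ i, t i x = 0)
    (hy : ∀ i, t i y = 0) : ((bf x y : ℤ) : ZMod s) = 0 := by
  choose τ hτ using fun i => exists_vec h5 (t i)
  have h2 : (2 : ZMod s) ≠ 0 := by
    intro h
    have h1 : ((2 : ℕ) : ZMod s) = 0 := by exact_mod_cast h
    rw [ZMod.natCast_eq_zero_iff] at h1
    have := Nat.le_of_dvd (by norm_num) h1
    omega
  have hinv : ∀ i x, t i (rep cs hp.isCartan w⁻¹ x) = -j * t i x := by
    intro i x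
    have h1 := hw i (rep cs hp.isCartan w⁻¹ x)
    rw [← rep_mul_apply, mul_inv_cancel, map_one, Module.End.one_apply] at h1
    rw [h1, ← mul_assoc]
    have h3 : -j * j = 1 := by
      have : -j * j = -(j ^ 2) := by ring
      rw [this, hj, neg_neg]
    rw [h3, one_mul]
  -- the vectors are isotropic
  have hiso : ∀ i k, ((bf (τ i) (τ k) : ℤ) : ZMod s) = 0 := by
    intro i k
    have h3 : ((bf (τ i) (rep cs hp.isCartan w (τ k)) : ℤ) : ZMod s) = j * t i (τ k) := by rw [hτ, hw]
    have h4 : ((bf (τ i) (rep cs hp.isCartan w (τ k)) : ℤ) : ZMod s) = -j * t k (τ i) := by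
      have h5 : bf (τ i) (rep cs hp.isCartan w (τ k)) = bf (τ k) (rep cs hp.isCartan w⁻¹ (τ i)) := by
        rw [← bf_rep hp cs w⁻¹ (τ i), ← rep_mul_apply, inv_mul_cancel, map_one, Module.End.one_apply, bf_comm]
      rw [h5, hτ, hinv]
    have h6 : t k (τ i) = t i (τ k) := by rw [← hτ, ← hτ, bf_comm]
    have h7 : j * (2 * t i (τ k)) = 0 := by
      rw [h3, h6] at h4
      linear_combination h4
    have hj0 : j ≠ 0 := by
      rintro rfl
      rw [zero_pow (by norm_num)] at hj
      have h8 : (1 : ZMod s) = 0 := by linear_combination hj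
      exact one_ne_zero h8
    have h8 := (mul_eq_zero.1 ((mul_eq_zero.1 h7).resolve_left hj0)).resolve_left h2
    rw [hτ, h8]
  -- the span
  set Wd : Submodule (ZMod s) (Fin 4 → ZMod s) := Submodule.span (ZMod s) (Set.range fun i => rd s (τ i)) with hWd
  have hle : Wd ≤ (bz s).orthogonal Wd := by
    rw [hWd, Submodule.span_le]
    rintro _ ⟨k, rfl⟩
    rw [SetLike.mem_coe, LinearMap.BilinForm.mem_orthogonal_iff]
    intro n hn
    induction hn using Submodule.span_induction with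
    | mem n hn =>
      obtain ⟨i, rfl⟩ := hn
      show bz s (rd s (τ i)) (rd s (τ k)) = 0
      rw [bz_rd, hiso]
    | zero =>
      show bz s 0 _ = 0
      rw [map_zero, LinearMap.zero_apply]
    | add a b _ _ ha hb =>
      show bz s (a + b) _ = 0
      rw [map_add, LinearMap.add_apply]
      have e1 : bz s a (rd s (τ k)) = 0 := ha
      have e2 : bz s b (rd s (τ k)) = 0 := hb
      rw [e1, e2, add_zero]
    | smul c a _ ha =>
      show bz s (c • a) _ = 0
      have e1 : bz s a (rd s (τ k)) = 0 := ha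
      rw [map_smul, LinearMap.smul_apply, e1, smul_zero]
  have hli : LinearIndependent (ZMod s) fun i => rd s (τ i) := by
    rw [Fintype.linearIndependent_iff]
    intro c hc
    have h3 : c = 0 := by
      apply hind
      intro x
      have h4 : bz s (∑ i, c i • rd s (τ i)) (rd s x) = 0 := by rw [hc, map_zero, LinearMap.zero_apply]
      rw [map_sum, LinearMap.sum_apply] at h4
      rw [← h4]
      refine Finset.sum_congr rfl fun i _ => ?_
      rw [map_smul, LinearMap.smul_apply, bz_rd, hτ, smul_eq_mul]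
    intro i
    rw [h3]; rfl
  have hfr : Module.finrank (ZMod s) Wd = 2 := by
    rw [hWd, finrank_span_eq_card hli]
    rfl
  have hfo : Module.finrank (ZMod s) ((bz s).orthogonal Wd) = 2 := by
    rw [LinearMap.BilinForm.finrank_orthogonal (bz_nd h5), hfr, Module.finrank_fin_fun]
  have heq : Wd = (bz s).orthogonal Wd := Submodule.eq_of_le_of_finrank_eq hle (by rw [hfr, hfo])
  -- the kernel
  have hK : ∀ x : Fin 4 → ℤ, (∀ i, t i x = 0) → rd s x ∈ (bz s).orthogonal Wd := by
    intro x hx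
    rw [LinearMap.BilinForm.mem_orthogonal_iff]
    intro n hn
    rw [hWd] at hn
    induction hn using Submodule.span_induction with
    | mem n hn =>
      obtain ⟨i, rfl⟩ := hn
      show bz s (rd s (τ i)) (rd s x) = 0
      rw [bz_rd, hτ, hx]
    | zero =>
      show bz s 0 _ = 0
      rw [map_zero, LinearMap.zero_apply]
    | add a b _ _ ha hb =>
      show bz s (a + b) _ = 0
      rw [map_add, LinearMap.add_apply]
      have e1 : bz s a (rd s x) = 0 := ha
      have e2 : bz s b (rd s x) = 0 := hb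
      rw [e1, e2, add_zero]
    | smul c a _ ha =>
      show bz s (c • a) _ = 0
      have e1 : bz s a (rd s x) = 0 := ha
      rw [map_smul, LinearMap.smul_apply, e1, smul_zero]
  have h6 := hK y hy
  have h7 := hK x hx
  rw [← heq] at h7
  rw [LinearMap.BilinForm.mem_orthogonal_iff] at h6
  have h8 : bz s (rd s x) (rd s y) = 0 := h6 _ h7
  rwa [bz_rd] at h8

end Lin

end Cfsg.Agent.H824.Wei
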