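import Cfsg.Agent.H824.Wei.F4Conf
import Cfsg.Agent.H496.Gen.PairSet
import Cfsg.Agent.H795.TorSub
import Cfsg.Agent.H129.CycT

/-!
# `F₄(q)` has no `(ℤ/s)² : S₃` for a primitive prime `s` of `q^4 - 1` (helper824)
-/

set_option autoImplicit false

namespace Cfsg.Agent.H824.Wei

open CoxeterSystem Cfsg Cfsg.Lie Cfsg.Lie.ChevalleyDatum
open Cfsg.Agent.ChevalleyStructure Cfsg.Agent.ChevalleyStructure.Elts Cfsg.Agent.ChevalleyStructure.CoxeterGeom
  Cfsg.Agent.ChevalleyStructure.CoxeterGeomTypes Cfsg.Agent.ChevalleyStructure.NPerm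
open Cfsg.Agent.Tits.Roots Cfsg.Agent.Tits.Core Cfsg.Agent.Nodes Cfsg.Agent.Nodes.Reps Cfsg.Agent.Nodes.BNOf
  Cfsg.Agent.Nodes.RGDChev Cfsg.Agent.Nodes.Bruhat Cfsg.Agent.Nodes.SubComb Cfsg.Agent.Nodes.Coroot
open Cfsg.Agent.KFacts.RgdField Cfsg.Agent.KFacts.RgdChevCoord Cfsg.Agent.BpExc.TorCent Cfsg.Agent.BpExc.TorChev
open Cfsg.Agent.GpExc.Field Cfsg.Agent.BpExc.Tow Cfsg.Agent.BpExc.TowChev Cfsg.Agent.BpExc.Fr
  Cfsg.Agent.BpExc.LangFr Cfsg.Agent.LangThm Cfsg.Agent.BpExc Cfsg.Agent.H129.TorusChar Cfsg.Agent.H129.TorusCent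
  Cfsg.Agent.H129.TorusUntw Cfsg.Agent.ChevStructure.FieldMap Cfsg.Agent.H496.Gen.PairSet Cfsg.Agent.H129.StabGen

universe u

section Act

variable {D : ChevalleyDatum} {l : ℕ} {M : CoxeterMatrix (Fin l)} (hp : IsType D l M) {k : Type u} [Field k]
  {W : Type*} [Group W] (cs : CoxeterSystem M W)

/-- **Families of torus elements conjugate in the group: the Weyl group element.** -/
theorem exists_act [Finite W] (hk : LocFin k) (p : ℕ) [Fact p.Prime] [CharP k p] {ι : Type*} [Finite ι]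
    {s t : ι → ↥(D.group k)} (hs : ∀ i, s i ∈ TT D k) (ht : ∀ i, t i ∈ TT D k) {c : ↥(D.group k)}
    (e : ∀ i, c * s i = t i * c) : ∃ w : W, ∀ i x, cX hp (t i) (rep cs hp.isCartan w x) = cX hp (s i) x := by
  have H := tow hp cs hk p
  have C := coordsL hp cs hk p
  rw [← TL_eq hp hk, ← XL_eq hp hk] at C
  have hs' : ∀ i, s i ∈ TL (Tj hp (k := k)) := fun i => by rw [TL_eq hp hk]; exact hs i
  have ht' : ∀ i, t i ∈ TL (Tj hp (k := k)) := fun i => by rw [TL_eq hp hk]; exact ht i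
  have hcG : c ∈ GG cs hp.isCartan (TL (Tj hp (k := k))) (XL (Xj hp)) := by
    rw [GG_eq_top hp cs hk]; exact Subgroup.mem_top c
  obtain ⟨m, -, w, n, hn, hnt, -⟩ := exists_form_set H C hs' ht' hcG e
  refine ⟨w, fun i x => ?_⟩
  refine ((isMC_cX hp (ht i)).comp (rep cs hp.isCartan w).toAddMonoidHom).ext (isMC_cX hp (hs i)) (fun j => ?_) x
  show cX hp (t i) (rep cs hp.isCartan w (sr j)) = _
  have h3 := C.chi_rp H.nsys hn (isRoot_sr cs hp.isCartan j) (hs' i)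
  have h4 : n * s i * n⁻¹ = t i := by rw [hnt]; group
  rw [h4] at h3
  rw [cX_root hp cs (ht i) ((isRoot_sr cs hp.isCartan j).act w), cX_sr]
  exact h3

/-- **Discrete logarithms of the characters of a torus element of order dividing `s`.** -/
theorem exists_log {s : ℕ} {ζ : k} (hζ : IsPrimitiveRoot ζ s) (hs0 : s ≠ 0) {t : ↥(D.group k)} (ht : t ∈ TT D k)
    (hts : t ^ s = 1) : ∃ L : (Fin l → ℤ) →+ ℤ, ∀ x, cX hp t x = ζ ^ L x := by
  have h1 : ∀ i, ∃ a : ℕ, ζ ^ a = cX hp t (sr i) := by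
    intro i
    have h2 : cX hp t (sr i) ^ s = 1 := by rw [← cX_pow hp ht, hts, cX_one]
    have : NeZero s := ⟨hs0⟩
    obtain ⟨a, -, ha⟩ := hζ.eq_pow_of_pow_eq_one h2
    exact ⟨a, ha⟩
  choose a ha using h1
  refine ⟨AddMonoidHom.mk' (fun x => ∑ i, (a i : ℤ) * x i) (fun x y => by
    simp only [Pi.add_apply, mul_add, Finset.sum_add_distrib]), fun x => ?_⟩
  show cX hp t x = ζ ^ (∑ i, (a i : ℤ) * x i)
  have hz0 : ζ ≠ 0 := hζ.ne_zero hs0
  rw [cX]
  have h3 : ∀ (S : Finset (Fin l)), ∏ i ∈ S, ch hp (sr i) t ^ x i = ζ ^ (∑ i ∈ S, (a i : ℤ) * x i) := by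
    classical
    intro S
    induction S using Finset.induction_on with
    | empty => simp
    | insert i S hi ih =>
      rw [Finset.prod_insert hi, Finset.sum_insert hi, zpow_add₀ hz0, ih, ← cX_sr, ← ha, zpow_mul, zpow_natCast]
  exact h3 _

theorem zpow_eq_iff {s : ℕ} {ζ : k} (hζ : IsPrimitiveRoot ζ s) (hs0 : s ≠ 0) {m n : ℤ} :
    ζ ^ m = ζ ^ n ↔ (m : ZMod s) = (n : ZMod s) := by
  have hz0 : ζ ≠ 0 := hζ.ne_zero hs0
  rw [ZMod.intCast_eq_intCast_iff_dvd_sub, ← hζ.zpow_eq_one_iff_dvd, zpow_sub₀ hz0, div_eq_one_iff_eq (zpow_ne_zero _ hz0)]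
  exact eq_comm

end Act

/-- the abelian group generated by two commuting elements of order `s` -/
theorem isPGroup_pair {G : Type*} [Group G] {s : ℕ} [Fact s.Prime] {x y : G} (hx : x ^ s = 1) (hy : y ^ s = 1)
    (hxy : x * y = y * x) : IsPGroup s ↥(Subgroup.zpowers x ⊔ Subgroup.zpowers y) := by
  have key : ∀ z : G, z ^ s = 1 → IsPGroup s ↥(Subgroup.zpowers z) := by
    intro z hz
    rintro ⟨_, ⟨n, rfl⟩⟩
    refine ⟨1, Subtype.ext ?_⟩
    show (z ^ n) ^ s ^ 1 = 1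
    rw [pow_one, ← zpow_natCast, ← zpow_mul, mul_comm, zpow_mul, zpow_natCast, hz, one_zpow]
  refine (key x hx).to_sup_of_normal_right' (key y hy) ?_
  rw [Subgroup.zpowers_le, Subgroup.mem_normalizer_iff]
  have hc : ∀ n : ℤ, x * y ^ n * x⁻¹ = y ^ n := by
    intro n
    have h1 : Commute x y := hxy
    rw [(h1.zpow_right n).eq]
    group
  intro z
  constructor
  · rintro ⟨n, rfl⟩
    exact ⟨n, (hc n).symm⟩
  · rintro ⟨n, hn⟩
    refine ⟨n, ?_⟩
    have h2 : x * z * x⁻¹ = x * y ^ n * x⁻¹ := by rw [hc]; exact hn.symm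
    exact (mul_left_cancel (mul_right_cancel h2)).symm

section Main

theorem ndvd_W {s : ℕ} (hs : s.Prime) (h5 : 5 ≤ s) : ¬ s ∣ Nat.card CoxeterMatrix.F₄.Group := by
  rw [Cfsg.Agent.H129.CycT.cardW_F4]
  intro h
  have h1 : s ∣ 2 ^ 7 * 3 ^ 2 := h
  rcases hs.dvd_mul.1 h1 with h2 | h2
  · have := Nat.le_of_dvd (by norm_num) (hs.dvd_of_dvd_pow h2)
    omega
  · have := Nat.le_of_dvd (by norm_num) (hs.dvd_of_dvd_pow h2)
    omega

/-- **No `(ℤ/s)² : S₃`.** -/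
theorem no_tor {F : Type u} [Field F] [Fintype F] {q s : ℕ} (hq : Fintype.card F = q) (hs : s.Prime) (h5 : 5 ≤ s)
    (hsq : s ∣ q ^ 2 + 1) {e : Fin 2 → ↥(chevF4.group F)} (hes : ∀ i, e i ^ s = 1) (hcomm : e 0 * e 1 = e 1 * e 0)
    (hind : ∀ c : Fin 2 → ℕ, e 0 ^ c 0 * e 1 ^ c 1 = 1 → ∀ i, s ∣ c i) {n₁ n₂ : ↥(chevF4.group F)}
    (h1 : n₁ * e 0 = e 0 * n₁) (h2 : n₁ * e 1 = (e 0 * e 1)⁻¹ * n₁) (h3 : n₂ * e 1 = e 1 * n₂)
    (h4 : n₂ * e 0 = (e 0 * e 1)⁻¹ * n₂) : False := by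
  have hp : IsType chevF4 4 CoxeterMatrix.F₄ := Cfsg.Agent.H129.CycT.typeF4
  let cs := CoxeterMatrix.F₄.toCoxeterSystem
  have hW : Finite CoxeterMatrix.F₄.Group := finite_W hp cs
  have hsF : Fact s.Prime := ⟨hs⟩
  obtain ⟨p, f, hpF, hpc, hpk, he, rfl, hk⟩ := exists_closure hq
  set k := AlgebraicClosure F with hkdef
  have hpp : p.Prime := hpF.out
  have hsp : s ≠ p := by
    rintro rfl
    have h6 : s ∣ (s ^ f) ^ 2 := (dvd_pow_self s he.ne').trans (dvd_pow_self _ (by norm_num))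
    exact hs.one_lt.ne' (Nat.dvd_one.1 ((Nat.dvd_add_right h6).1 hsq))
  have hsk : NeZero (s : k) := ⟨by
    rw [Ne, CharP.cast_eq_zero_iff k p]
    exact fun h => hsp ((Nat.prime_dvd_prime_iff_eq hpp hs).1 h).symm⟩
  obtain ⟨ζ, hζ⟩ := HasEnoughRootsOfUnity.exists_primitiveRoot k s
  set E := emb hp.inList (algebraMap F k) with hE
  have hEi : Function.Injective E := emb_injective hp.inList _
  -- into the torus
  have hfin : Finite ↥(chevF4.group F) := inferInstance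
  set K : Subgroup ↥(chevF4.group F) := Subgroup.zpowers (e 0) ⊔ Subgroup.zpowers (e 1) with hK
  have hfK : Finite ↥(K.map E) := Finite.of_surjective (E.subgroupMap K) (E.subgroupMap_surjective K)
  have hQ : IsPGroup s ↥(K.map E) := (isPGroup_pair (hes 0) (hes 1) hcomm).map E
  obtain ⟨g, hg⟩ := Cfsg.Agent.H795.TorSub.exists_toral_of_not_dvd hp p hk hs hsp (ndvd_W hs h5) hQ
  set ε : Fin 2 → ↥(chevF4.group k) := fun i => g * E (e i) * g⁻¹ with hε
  have hεT : ∀ i, ε i ∈ TT chevF4 k := by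
    intro i
    refine hg _ ⟨e i, ?_, rfl⟩
    fin_cases i
    · exact Subgroup.mem_sup_left (Subgroup.mem_zpowers _)
    · exact Subgroup.mem_sup_right (Subgroup.mem_zpowers _)
  have hεs : ∀ i, ε i ^ s = 1 := by
    intro i
    show (g * E (e i) * g⁻¹) ^ s = 1
    rw [conj_pow, ← map_pow, hes, map_one, mul_one, mul_inv_cancel]
  choose L hL using fun i => exists_log hp hζ hs.ne_zero (hεT i) (hεs i)
  set t : Fin 2 → ((Fin 4 → ℤ) →+ ZMod s) := fun i => (Int.castAddHom (ZMod s)).comp (L i) with ht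
  have htL : ∀ i x, t i x = ((L i x : ℤ) : ZMod s) := fun i x => rfl
  have hone : ∀ i x, t i x = 0 ↔ cX hp (ε i) x = 1 := by
    intro i x
    rw [hL, htL, ← zpow_zero ζ, zpow_eq_iff hζ hs.ne_zero, Int.cast_zero]
  -- the Frobenius automorphism
  have hζ0 : ζ ≠ 0 := hζ.ne_zero hs.ne_zero
  have F0 := fr_phi (p := p) (e := f) (k := k) hp cs
  have hφE : ∀ x, phi chevF4 k p f (E x) = E x := fun x => phi_emb hp _ hq x
  have hφT : ∀ i, phi chevF4 k p f (ε i) ∈ TT chevF4 k := fun i => (F0.tor _).2 (hεT i)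
  obtain ⟨w₀, hw₀⟩ := exists_act hp cs hk p hεT hφT (c := phi chevF4 k p f g * g⁻¹) (fun i => by
    show _ * (g * E (e i) * g⁻¹) = phi chevF4 k p f (g * E (e i) * g⁻¹) * _
    rw [map_mul, map_mul, map_inv, hφE]
    group)
  have hq1 : ((p ^ f : ℕ) : ZMod s) ^ 2 = -1 := by
    have h6 : (((p ^ f) ^ 2 + 1 : ℕ) : ZMod s) = 0 := (ZMod.natCast_eq_zero_iff _ _).2 hsq
    push_cast at h6 ⊢
    linear_combination h6
  have h0 : ∀ i x, t i (rep cs hp.isCartan w₀ x) = -((p ^ f : ℕ) : ZMod s) * t i x := by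
    intro i x
    have h6 := hw₀ i x
    have h7 := cX_sigma hp cs isFrob_phi F0 (hεT i) (rep cs hp.isCartan w₀ x)
    have h8 : cX hp (ε i) (rep cs hp.isCartan w₀ x) ^ p ^ f = cX hp (ε i) x := by
      rw [← h6, ← h7]
      rfl
    rw [hL, hL, ← zpow_natCast, ← zpow_mul, zpow_eq_iff hζ hs.ne_zero, Int.cast_mul, Int.cast_natCast] at h8
    rw [htL, htL, ← h8]
    linear_combination ((L i (rep cs hp.isCartan w₀ x) : ℤ) : ZMod s) * hq1
  -- the two reflections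
  set ε₃ : ↥(chevF4.group k) := (ε 0 * ε 1)⁻¹ with hε₃
  have hε₃T : ε₃ ∈ TT chevF4 k := inv_mem (mul_mem (hεT 0) (hεT 1))
  have hc₃ : ∀ x, cX hp ε₃ x = ζ ^ (-(L 0 x) - L 1 x) := by
    intro x
    have h6 := cX_mul hp hε₃T (mul_mem (hεT 0) (hεT 1)) x
    rw [hε₃, inv_mul_cancel, cX_one, cX_mul hp (hεT 0) (hεT 1), hL, hL, ← zpow_add₀ hζ0] at h6
    rw [← hε₃] at h6
    have h7 : ζ ^ (L 0 x + L 1 x) ≠ 0 := zpow_ne_zero _ hζ0
    apply mul_right_cancel₀ h7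
    rw [← h6, ← zpow_add₀ hζ0]
    have h8 : -(L 0 x) - L 1 x + (L 0 x + L 1 x) = 0 := by ring
    rw [h8, zpow_zero]
  have hconj : ∀ {n a b : ↥(chevF4.group F)}, n * a = b * n → (g * E n * g⁻¹) * (g * E a * g⁻¹) =
      (g * E b * g⁻¹) * (g * E n * g⁻¹) := by
    intro n a b h
    have h6 : E n * E a = E b * E n := by rw [← map_mul, h, map_mul]
    calc (g * E n * g⁻¹) * (g * E a * g⁻¹) = g * (E n * E a) * g⁻¹ := by group
      _ = g * (E b * E n) * g⁻¹ := by rw [h6]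
      _ = _ := by group
  have hε₃' : g * E (e 0 * e 1)⁻¹ * g⁻¹ = ε₃ := by
    show _ = ((g * E (e 0) * g⁻¹) * (g * E (e 1) * g⁻¹))⁻¹
    rw [map_inv, map_mul]
    group
  obtain ⟨w₁, hw₁⟩ := exists_act hp cs hk p (s := ε) (t := ![ε 0, ε₃]) hεT (fun i => by
    fin_cases i
    · exact hεT 0
    · exact hε₃T) (c := g * E n₁ * g⁻¹) (fun i => by
    fin_cases i
    · exact hconj h1
    · show _ * ε 1 = ε₃ * _
      rw [← hε₃']
      exact hconj h2)
  obtain ⟨w₂, hw₂⟩ := exists_act hp cs hk p (s := ε) (t := ![ε₃, ε 1]) hεT (fun i => by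
    fin_cases i
    · exact hε₃T
    · exact hεT 1) (c := g * E n₂ * g⁻¹) (fun i => by
    fin_cases i
    · show _ * ε 0 = ε₃ * _
      rw [← hε₃']
      exact hconj h4
    · exact hconj h3)
  have h10 : ∀ x, t 0 (rep cs hp.isCartan w₁ x) = t 0 x := by
    intro x
    have h6 : cX hp (ε 0) (rep cs hp.isCartan w₁ x) = cX hp (ε 0) x := hw₁ 0 x
    rwa [hL, hL, zpow_eq_iff hζ hs.ne_zero] at h6
  have h11 : ∀ x, t 1 (rep cs hp.isCartan w₁ x) = - t 0 x - t 1 x := by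
    intro x
    have h6 : cX hp ε₃ (rep cs hp.isCartan w₁ x) = cX hp (ε 1) x := hw₁ 1 x
    rw [hc₃, hL, zpow_eq_iff hζ hs.ne_zero] at h6
    push_cast at h6
    have h7 := h10 x
    rw [htL, htL] at h7
    rw [htL, htL, htL]
    linear_combination -h6 - h7
  have h21 : ∀ x, t 1 (rep cs hp.isCartan w₂ x) = t 1 x := by
    intro x
    have h6 : cX hp (ε 1) (rep cs hp.isCartan w₂ x) = cX hp (ε 1) x := hw₂ 1 x
    rwa [hL, hL, zpow_eq_iff hζ hs.ne_zero] at h6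
  have h20 : ∀ x, t 0 (rep cs hp.isCartan w₂ x) = - t 0 x - t 1 x := by
    intro x
    have h6 : cX hp ε₃ (rep cs hp.isCartan w₂ x) = cX hp (ε 0) x := hw₂ 0 x
    rw [hc₃, hL, zpow_eq_iff hζ hs.ne_zero] at h6
    push_cast at h6
    have h7 := h21 x
    rw [htL, htL] at h7
    rw [htL, htL, htL]
    linear_combination -h6 - h7
  -- independence
  have hindt : ∀ c : Fin 2 → ZMod s, (∀ x, ∑ i, c i * t i x = 0) → c = 0 := by
    intro c hc
    have h6 : e 0 ^ (c 0).val * e 1 ^ (c 1).val = 1 := by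
      apply hEi
      rw [map_one]
      have h7 : ε 0 ^ (c 0).val * ε 1 ^ (c 1).val = 1 := by
        refine cX_inj hp (mul_mem (pow_mem (hεT 0) _) (pow_mem (hεT 1) _)) (one_mem _) fun i => ?_
        rw [cX_one, cX_mul hp (pow_mem (hεT 0) _) (pow_mem (hεT 1) _), cX_pow hp (hεT 0), cX_pow hp (hεT 1), hL, hL,
          ← zpow_natCast, ← zpow_natCast, ← zpow_mul, ← zpow_mul, ← zpow_add₀ hζ0, ← zpow_zero ζ,
          zpow_eq_iff hζ hs.ne_zero]
        have h8 := hc (sr i)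
        rw [Fin.sum_univ_two, htL, htL] at h8
        push_cast
        rw [ZMod.natCast_zmod_val, ZMod.natCast_zmod_val]
        linear_combination h8
      have h8 : (g * E (e 0) * g⁻¹) ^ (c 0).val * (g * E (e 1) * g⁻¹) ^ (c 1).val = 1 := h7
      rw [conj_pow, conj_pow] at h8
      have h9 : g * (E (e 0) ^ (c 0).val * E (e 1) ^ (c 1).val) * g⁻¹ = 1 := by rw [← h8]; group
      rw [map_mul, map_pow, map_pow]
      exact (conj_eq_one_iff).1 h9
    have h7 := hind (fun i => (c i).val) h6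
    funext i
    have h8 := h7 i
    rw [← ZMod.natCast_zmod_val (c i), (ZMod.natCast_eq_zero_iff _ _).2 h8]
    rfl
  -- a root
  by_cases hroot : ∃ a, IsRoot cs hp.isCartan a ∧ t 0 a = 0
  · obtain ⟨a, ha, ha0⟩ := hroot
    exact no_config h5 hp cs (j := -((p ^ f : ℕ) : ZMod s)) (by rw [neg_sq, hq1]) hindt h0 h10 h11 h21 h20 ha ha0
  · have hw1 : w₁ = 1 := by
      refine stab_eq_one' hp cs (hεT 0) hk p hs (ndvd_W hs h5) (m := 1) (V := ⊥) (fun a _ => ?_) (fun a ha h6 => ?_)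
        (fun v hv x => ?_) (fun v hv hv1 => absurd (Subgroup.mem_bot.1 hv) hv1) (fun a _ => ?_)
      · rw [one_mul, ← cX_pow hp (hεT 0), hεs, cX_one]
      · rw [pow_one] at h6
        exact absurd ⟨a, ha, (hone 0 a).2 h6⟩ hroot
      · rw [Subgroup.mem_bot.1 hv, map_one, Module.End.one_apply, sub_self]
        exact zero_mem _
      · exact hw₁ 0 a
    have h6 : (![1, 2] : Fin 2 → ZMod s) = 0 := by
      apply hindt
      intro x
      have h7 := h11 x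
      rw [hw1, map_one, Module.End.one_apply] at h7
      rw [Fin.sum_univ_two]
      show 1 * t 0 x + 2 * t 1 x = 0
      linear_combination h7
    exact one_ne_zero (congrFun h6 0)

end Main

end Cfsg.Agent.H824.Wei
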